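import Cfsg.Agent.Lib.Helper46.SL2Spectrum

/-!
# CUBE ladder (S3626): the groups `XG θ k = V^k ⋊ (2 × PSL₂(K))`

`V = M₂(K)` with `g · M = g M θ(g)ᵀ` and the sign acting by `±1`; realised as a group of affine
permutations of `Fin k → M₂(K)`.
-/

set_option autoImplicit false

namespace Cfsg.Agent.Lib.Helper8.Cube

open Matrix Cfsg.Agent.Lib.Helper46

variable {K : Type*} [Field K] (θ : K →+* K)

/-- the linear part `M ↦ ε g M θ(g)ᵀ`. -/
def lin (ε : ℤˣ) (g : SpecialLinearGroup (Fin 2) K) (M : Matrix (Fin 2) (Fin 2) K) :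
    Matrix (Fin 2) (Fin 2) K :=
  (((ε : ℤ) : K)) • ((g : Matrix (Fin 2) (Fin 2) K) * M * ((g : Matrix (Fin 2) (Fin 2) K).map θ)ᵀ)

theorem lin_add (ε : ℤˣ) (g : SpecialLinearGroup (Fin 2) K) (M N : Matrix (Fin 2) (Fin 2) K) :
    lin θ ε g (M + N) = lin θ ε g M + lin θ ε g N := by
  unfold lin
  rw [mul_add, add_mul, smul_add]

theorem lin_zero (ε : ℤˣ) (g : SpecialLinearGroup (Fin 2) K) : lin θ ε g 0 = 0 := by
  unfold lin
  simp

theorem lin_neg (ε : ℤˣ) (g : SpecialLinearGroup (Fin 2) K) (M : Matrix (Fin 2) (Fin 2) K) :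
    lin θ ε g (-M) = -lin θ ε g M := by
  unfold lin
  simp

theorem lin_sub (ε : ℤˣ) (g : SpecialLinearGroup (Fin 2) K) (M N : Matrix (Fin 2) (Fin 2) K) :
    lin θ ε g (M - N) = lin θ ε g M - lin θ ε g N := by
  rw [sub_eq_add_neg, lin_add, lin_neg, sub_eq_add_neg]

theorem lin_lin (ε ε' : ℤˣ) (g g' : SpecialLinearGroup (Fin 2) K) (M : Matrix (Fin 2) (Fin 2) K) :
    lin θ ε g (lin θ ε' g' M) = lin θ (ε * ε') (g * g') M := by
  have h : ((g * g' : SpecialLinearGroup (Fin 2) K) : Matrix (Fin 2) (Fin 2) K)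
      = (g : Matrix (Fin 2) (Fin 2) K) * (g' : Matrix (Fin 2) (Fin 2) K) :=
    Matrix.SpecialLinearGroup.coe_mul g g'
  unfold lin
  rw [h, Matrix.map_mul, Matrix.transpose_mul, Matrix.mul_smul,
    Matrix.smul_mul, smul_smul]
  congr 1
  · push_cast; ring
  · simp only [Matrix.mul_assoc]

theorem lin_one (M : Matrix (Fin 2) (Fin 2) K) : lin θ 1 1 M = M := by
  unfold lin
  simp

theorem lin_negOne (ε : ℤˣ) (g : SpecialLinearGroup (Fin 2) K) (M : Matrix (Fin 2) (Fin 2) K) :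
    lin θ ε (negOne * g) M = lin θ ε g M := by
  have h : ((negOne * g : SpecialLinearGroup (Fin 2) K) : Matrix (Fin 2) (Fin 2) K)
      = -(g : Matrix (Fin 2) (Fin 2) K) := by
    ext i j
    fin_cases i <;> fin_cases j <;> simp [negOne, mul_00, mul_01, mul_10, mul_11]
  unfold lin
  rw [h]
  have h2 : (-(g : Matrix (Fin 2) (Fin 2) K)).map θ = -((g : Matrix (Fin 2) (Fin 2) K).map θ) := by
    ext i j; simp
  rw [h2]
  simp

theorem unit_mul_self (ε : ℤˣ) : ε * ε = 1 := by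
  rcases Int.units_eq_one_or ε with rfl | rfl <;> simp

variable (k : ℕ)

/-- the affine permutation `v ↦ ε g v θ(g)ᵀ + b`. -/
def aff (ε : ℤˣ) (g : SpecialLinearGroup (Fin 2) K) (b : Fin k → Matrix (Fin 2) (Fin 2) K) :
    Equiv.Perm (Fin k → Matrix (Fin 2) (Fin 2) K) where
  toFun v := fun i => lin θ ε g (v i) + b i
  invFun v := fun i => lin θ ε g⁻¹ (v i - b i)
  left_inv v := by
    funext i
    simp only [add_sub_cancel_right, lin_lin, unit_mul_self, inv_mul_cancel, lin_one]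
  right_inv v := by
    funext i
    simp only [lin_lin, unit_mul_self, mul_inv_cancel, lin_one, sub_add_cancel]

theorem aff_apply (ε : ℤˣ) (g : SpecialLinearGroup (Fin 2) K) (b v : Fin k → Matrix (Fin 2) (Fin 2) K)
    (i : Fin k) : aff θ k ε g b v i = lin θ ε g (v i) + b i := rfl

theorem aff_mul (ε ε' : ℤˣ) (g g' : SpecialLinearGroup (Fin 2) K)
    (b b' : Fin k → Matrix (Fin 2) (Fin 2) K) :
    aff θ k ε g b * aff θ k ε' g' b' = aff θ k (ε * ε') (g * g') (fun i => lin θ ε g (b' i) + b i) := by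
  ext v i : 2
  rw [Equiv.Perm.mul_apply, aff_apply, aff_apply, aff_apply, lin_add, lin_lin, add_assoc]

theorem aff_one : aff θ k 1 1 0 = 1 := by
  ext v i : 2
  rw [aff_apply, lin_one]
  simp

theorem aff_inv (ε : ℤˣ) (g : SpecialLinearGroup (Fin 2) K) (b : Fin k → Matrix (Fin 2) (Fin 2) K) :
    (aff θ k ε g b)⁻¹ = aff θ k ε g⁻¹ (fun i => -lin θ ε g⁻¹ (b i)) := by
  rw [inv_eq_iff_mul_eq_one, aff_mul, unit_mul_self, mul_inv_cancel, ← aff_one]
  congr 1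
  funext i
  rw [lin_neg, lin_lin, unit_mul_self, mul_inv_cancel, lin_one]
  simp

/-- the group `V^k ⋊ (2 × PSL₂(K))`. -/
def XG : Subgroup (Equiv.Perm (Fin k → Matrix (Fin 2) (Fin 2) K)) where
  carrier := {π | ∃ ε g b, π = aff θ k ε g b}
  mul_mem' := by
    rintro _ _ ⟨ε, g, b, rfl⟩ ⟨ε', g', b', rfl⟩
    exact ⟨_, _, _, aff_mul θ k ε ε' g g' b b'⟩
  one_mem' := ⟨1, 1, 0, (aff_one θ k).symm⟩
  inv_mem' := by
    rintro _ ⟨ε, g, b, rfl⟩
    exact ⟨_, _, _, aff_inv θ k ε g b⟩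

theorem mem_XG {π : Equiv.Perm (Fin k → Matrix (Fin 2) (Fin 2) K)} :
    π ∈ XG θ k ↔ ∃ ε g b, π = aff θ k ε g b := Iff.rfl

theorem aff_mem (ε : ℤˣ) (g : SpecialLinearGroup (Fin 2) K) (b : Fin k → Matrix (Fin 2) (Fin 2) K) :
    aff θ k ε g b ∈ XG θ k := ⟨ε, g, b, rfl⟩

/-- the partial norm `∑_{i<n} (ε g)^i M`. -/
def nsum (ε : ℤˣ) (g : SpecialLinearGroup (Fin 2) K) (n : ℕ) (M : Matrix (Fin 2) (Fin 2) K) :
    Matrix (Fin 2) (Fin 2) K :=
  ∑ i ∈ Finset.range n, lin θ (ε ^ i) (g ^ i) M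

end Cfsg.Agent.Lib.Helper8.Cube
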