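import Cfsg.Agent.Lib.Helper8.Cube.Defs

/-! CUBE ladder (S3626), rung LID. -/

set_option autoImplicit false

namespace Cfsg.Agent.Lib.Helper8.Cube

open Matrix Cfsg.Agent.Lib.Helper46

variable {K : Type*} [Field K] (θ : K →+* K) (k : ℕ)

theorem lin_eq_id (h2 : (2 : K) ≠ 0) {ε : ℤˣ} {g : SpecialLinearGroup (Fin 2) K}
    (h : ∀ M, lin θ ε g M = M) : ε = 1 ∧ (g = 1 ∨ g = negOne) := by
  obtain ⟨e, he, hee⟩ : ∃ e : K, e = ((ε : ℤ) : K) ∧ e * e = 1 :=
    ⟨_, rfl, by rcases Int.units_eq_one_or ε with rfl | rfl <;> simp⟩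
  have he0 : e ≠ 0 := by
    intro h0; rw [h0] at hee; simp at hee
  have hd := det2 g
  have a1 := congrFun (congrFun (h !![1, 0; 0, 0]) 0) 0
  have a2 := congrFun (congrFun (h !![1, 0; 0, 0]) 1) 1
  have a3 := congrFun (congrFun (h !![0, 0; 0, 1]) 0) 0
  have a4 := congrFun (congrFun (h !![0, 1; 0, 0]) 0) 1
  simp only [lin, ← he, Matrix.smul_apply, Matrix.mul_apply, Fin.sum_univ_two, Matrix.transpose_apply,
    Matrix.map_apply, smul_eq_mul] at a1 a2 a3 a4
  simp at a1 a2 a3 a4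
  have hc : (g : Matrix (Fin 2) (Fin 2) K) 1 0 = 0 := a2.resolve_left he0
  have hb : (g : Matrix (Fin 2) (Fin 2) K) 0 1 = 0 := a3.resolve_left he0
  rw [hb, hc] at hd
  have ha0 : (g : Matrix (Fin 2) (Fin 2) K) 0 0 ≠ 0 := by
    intro h0; rw [h0] at hd; simp at hd
  have hθ : θ ((g : Matrix (Fin 2) (Fin 2) K) 0 0) = θ ((g : Matrix (Fin 2) (Fin 2) K) 1 1) := by
    have h5 : e * (g : Matrix (Fin 2) (Fin 2) K) 0 0 *
        (θ ((g : Matrix (Fin 2) (Fin 2) K) 0 0) - θ ((g : Matrix (Fin 2) (Fin 2) K) 1 1)) = 0 := by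
      linear_combination a1 - a4
    exact sub_eq_zero.1 ((mul_eq_zero.1 h5).resolve_left (mul_ne_zero he0 ha0))
  have had : (g : Matrix (Fin 2) (Fin 2) K) 0 0 = (g : Matrix (Fin 2) (Fin 2) K) 1 1 :=
    θ.injective hθ
  have hcen : g ∈ Subgroup.center (SpecialLinearGroup (Fin 2) K) :=
    (mem_center_iff2 g).2 ⟨hb, hc, had⟩
  have hg1 : g = 1 ∨ g = negOne := by
    rcases center_entry g hcen with h6 | h6
    · left
      apply ext2 <;> simp only [one_00, one_01, one_10, one_11]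
      · exact h6
      · exact hb
      · exact hc
      · rw [← had]; exact h6
    · right
      apply ext2 <;> simp only [negOne, mk2_00, mk2_01, mk2_10, mk2_11]
      · exact h6
      · exact hb
      · exact hc
      · rw [← had]; exact h6
  refine ⟨?_, hg1⟩
  have he1 : e = 1 := by
    rcases center_entry g hcen with h6 | h6
    · rw [h6] at a1; simpa using a1
    · rw [h6] at a1; simpa using a1
  rcases Int.units_eq_one_or ε with h7 | h7
  · exact h7
  · exfalso
    rw [h7] at he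
    apply h2
    have h8 : e = -1 := by rw [he]; simp
    linear_combination h8 - he1

theorem aff_eq_one_iff (h2 : (2 : K) ≠ 0) (hk : 1 ≤ k) {ε : ℤˣ} {g : SpecialLinearGroup (Fin 2) K}
    {b : Fin k → Matrix (Fin 2) (Fin 2) K} :
    aff θ k ε g b = 1 ↔ ε = 1 ∧ (g = 1 ∨ g = negOne) ∧ ∀ i, b i = 0 := by
  constructor
  · intro h
    have hb : ∀ i, b i = 0 := by
      intro i
      have h1 := congrFun (congrArg (fun π : Equiv.Perm (Fin k → Matrix (Fin 2) (Fin 2) K) => π 0) h) i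
      simp only [aff_apply, Equiv.Perm.one_apply, Pi.zero_apply, lin_zero, zero_add] at h1
      exact h1
    have hl : ∀ M, lin θ ε g M = M := by
      intro M
      have h1 := congrFun (congrArg
        (fun π : Equiv.Perm (Fin k → Matrix (Fin 2) (Fin 2) K) => π (fun _ => M)) h) ⟨0, hk⟩
      simp only [aff_apply, Equiv.Perm.one_apply, hb, add_zero] at h1
      exact h1
    obtain ⟨h3, h4⟩ := lin_eq_id θ h2 hl
    exact ⟨h3, h4, hb⟩
  · rintro ⟨rfl, hg, hb⟩
    ext v i : 2
    rw [aff_apply, hb, add_zero, Equiv.Perm.one_apply]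
    rcases hg with rfl | rfl
    · exact lin_one θ _
    · have h1 := lin_negOne θ 1 1 (v i)
      rw [mul_one] at h1
      rw [h1]
      exact lin_one θ _

end Cfsg.Agent.Lib.Helper8.Cube
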