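import Cfsg.Agent.Lib.Helper8.Cube.POW
import Cfsg.Agent.Lib.Helper8.Cube.LID
import Cfsg.Agent.Lib.Helper46.SL2Torus

/-! CUBE ladder (S3626), rung EX. -/

set_option autoImplicit false
set_option linter.unusedSectionVars false
set_option linter.style.haveILetI false
set_option linter.unusedSimpArgs false

namespace Cfsg.Agent.Lib.Helper8.Cube

open Matrix Cfsg.Agent.Lib.Helper46

section gen

variable {K : Type*} [Field K] (θ : K →+* K) (k : ℕ)

theorem ex_uu_pow (x : K) (n : ℕ) : (uu x) ^ n = uu ((n : K) * x) := by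
  induction n with
  | zero =>
    rw [pow_zero]
    apply ext2 <;> simp [uu]
  | succ n ih =>
    rw [pow_succ, ih]
    apply ext2 <;> simp [uu, mul_00, mul_01, mul_10, mul_11]
    ring

theorem ex_nsum_zero (ε : ℤˣ) (g : SpecialLinearGroup (Fin 2) K) (n : ℕ) : nsum θ ε g n 0 = 0 := by
  unfold nsum
  exact Finset.sum_eq_zero (fun i _ => lin_zero θ _ _)

theorem ex_orderOf {a : Equiv.Perm (Fin k → Matrix (Fin 2) (Fin 2) K)} (ha : a ∈ XG θ k) (d : ℕ)
    (h : ∀ n, a ^ n = 1 ↔ d ∣ n) : orderOf (⟨a, ha⟩ : XG θ k) = d := by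
  rw [Subgroup.orderOf_mk]
  exact Nat.dvd_antisymm (orderOf_dvd_of_pow_eq_one ((h d).2 dvd_rfl))
    ((h _).1 (pow_orderOf_eq_one a))

theorem ex_pow_zero_iff (h2 : (2 : K) ≠ 0) (hk : 1 ≤ k) (ε : ℤˣ) (g : SpecialLinearGroup (Fin 2) K)
    (n : ℕ) : aff θ k ε g 0 ^ n = 1 ↔ ε ^ n = 1 ∧ (g ^ n = 1 ∨ g ^ n = negOne) := by
  rw [aff_pow, aff_eq_one_iff θ k h2 hk]
  constructor
  · rintro ⟨h1, h2, -⟩
    exact ⟨h1, h2⟩
  · rintro ⟨h1, h2⟩
    exact ⟨h1, h2, fun i => ex_nsum_zero θ ε g n⟩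

theorem ex_neg_one_pow (n : ℕ) : (-1 : ℤˣ) ^ n = 1 ↔ 2 ∣ n := by
  rw [neg_one_pow_eq_one_iff_even (by decide), even_iff_two_dvd]

end gen

variable {K : Type*} [Field K] [Fintype K] [CharP K 3] (θ : K →+* K) (k : ℕ) {m : ℕ}

omit [Fintype K] in
theorem ex_two_ne : (2 : K) ≠ 0 := by
  intro h
  have h1 : ((2 : ℕ) : K) = 0 := by exact_mod_cast h
  rw [CharP.cast_eq_zero_iff K 3] at h1
  omega

omit [Fintype K] in
theorem ex_three : (3 : K) = 0 := by
  have h1 : ((3 : ℕ) : K) = 0 := CharP.cast_eq_zero K 3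
  exact_mod_cast h1

omit [Fintype K] in
theorem ex_uu_one_pow (n : ℕ) :
    ((uu (1 : K)) ^ n = 1 ∨ (uu (1 : K)) ^ n = negOne) ↔ 3 ∣ n := by
  rw [ex_uu_pow, mul_one]
  constructor
  · rintro (h | h)
    · have := congrArg (fun Z : SpecialLinearGroup (Fin 2) K => (Z : Matrix (Fin 2) (Fin 2) K) 0 1) h
      simp only [uu, mk2_01] at this
      rw [← CharP.cast_eq_zero_iff K 3]
      simpa using this
    · exfalso
      have := congrArg (fun Z : SpecialLinearGroup (Fin 2) K => (Z : Matrix (Fin 2) (Fin 2) K) 0 0) h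
      simp only [uu, negOne, mk2_00] at this
      apply ex_two_ne (K := K)
      linear_combination this
  · intro h
    left
    rw [(CharP.cast_eq_zero_iff K 3 n).2 h]
    apply ext2 <;> simp [uu]

theorem exists_order_six (hk : 1 ≤ k) : ∃ x : XG θ k, orderOf x = 6 := by
  refine ⟨⟨aff θ k (-1) (uu 1) 0, aff_mem θ k _ _ _⟩, ex_orderOf θ k _ 6 ?_⟩
  intro n
  rw [ex_pow_zero_iff θ k ex_two_ne hk, ex_neg_one_pow, ex_uu_one_pow]
  omega

omit [Fintype K] in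
theorem ex_nsum_three :
    nsum θ 1 (uu (1 : K)) 3 (Matrix.single 1 1 1) 0 0 = 2 := by
  unfold nsum
  simp only [Finset.sum_range_succ, Finset.sum_range_zero, zero_add, one_pow, ex_uu_pow, mul_one]
  simp only [lin, Matrix.add_apply, Matrix.smul_apply, Matrix.mul_apply, Fin.sum_univ_two,
    Matrix.transpose_apply, Matrix.map_apply, uu, mk2_00, mk2_01, mk2_10, mk2_11]
  simp [Matrix.single]
  have h3 := ex_three (K := K)
  have hθ2 : θ 2 = 2 := map_ofNat θ 2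
  rw [hθ2]
  linear_combination h3

theorem exists_order_nine (hk : 1 ≤ k) : ∃ x : XG θ k, orderOf x = 9 := by
  refine ⟨⟨aff θ k 1 (uu 1) (fun _ => Matrix.single 1 1 1), aff_mem θ k _ _ _⟩, ?_⟩
  rw [Subgroup.orderOf_mk]
  haveI : Fact (Nat.Prime 3) := ⟨Nat.prime_three⟩
  have h9 : (9 : ℕ) = 3 ^ (1 + 1) := by norm_num
  rw [h9]
  apply orderOf_eq_prime_pow
  · rw [pow_one, aff_pow, aff_eq_one_iff θ k ex_two_ne hk]
    rintro ⟨-, -, h⟩
    have h0 := h ⟨0, hk⟩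
    have h1 := congrFun (congrFun h0 0) 0
    rw [ex_nsum_three] at h1
    exact ex_two_ne h1
  · have := aff_pow_three_mul θ k (ex_three (K := K)) (ε := 1) (g := uu 1) (n := 3) (one_pow 3)
      ((ex_uu_one_pow 3).2 dvd_rfl) (fun _ => Matrix.single 1 1 1)
    exact this

theorem ex_pow_mod (m : ℕ) : 3 ^ (2 * m + 1) % 4 = 3 := by
  induction m with
  | zero => norm_num
  | succ m ih =>
    have : 3 ^ (2 * (m + 1) + 1) = 9 * 3 ^ (2 * m + 1) := by ring
    rw [this]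
    omega

omit [Fintype K] [CharP K 3] in
theorem ex_dd_neg_one : dd (-1 : Kˣ) = negOne := by
  apply ext2 <;> simp [dd, negOne]

theorem exists_order_sub (hK : Fintype.card K = 3 ^ (2 * m + 1)) (hk : 1 ≤ k) :
    ∃ x : XG θ k, orderOf x = 3 ^ (2 * m + 1) - 1 := by
  obtain ⟨u, hu, -⟩ := exists_orderOf_card_sub_one (F := K)
  rw [hK] at hu
  refine ⟨⟨aff θ k (-1) (dd u) 0, aff_mem θ k _ _ _⟩, ex_orderOf θ k _ _ ?_⟩
  intro n
  rw [ex_pow_zero_iff θ k ex_two_ne hk, ex_neg_one_pow, dd_pow]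
  have hmod := ex_pow_mod m
  obtain ⟨j, hj⟩ : ∃ j, 3 ^ (2 * m + 1) - 1 = 2 * (2 * j + 1) := ⟨3 ^ (2 * m + 1) / 4, by omega⟩
  rw [hj] at hu ⊢
  constructor
  · rintro ⟨h2, h⟩
    have h1 : u ^ (2 * n) = 1 := by
      rw [mul_comm, pow_mul]
      rcases h with h | h
      · have : u ^ n = 1 := dd_injective (h.trans dd_one.symm)
        rw [this, one_pow]
      · have : u ^ n = -1 := dd_injective (h.trans ex_dd_neg_one.symm)
        rw [this]; simp
    have h3 : 2 * (2 * j + 1) ∣ 2 * n := hu ▸ orderOf_dvd_of_pow_eq_one h1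
    have h4 : 2 * j + 1 ∣ n := Nat.dvd_of_mul_dvd_mul_left (by norm_num) h3
    exact Nat.Coprime.mul_dvd_of_dvd_of_dvd (by simp) h2 h4
  · intro h
    refine ⟨dvd_trans (dvd_mul_right _ _) h, Or.inl ?_⟩
    have : u ^ n = 1 := orderOf_dvd_iff_pow_eq_one.1 (hu ▸ h)
    rw [this, dd_one]

theorem exists_order_add (hK : Fintype.card K = 3 ^ (2 * m + 1)) (hk : 1 ≤ k) :
    ∃ x : XG θ k, orderOf x = (3 ^ (2 * m + 1) + 1) / 2 := by
  haveI : Fact (Nat.Prime 3) := ⟨Nat.prime_three⟩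
  obtain ⟨X, hX⟩ := exists_orderOf_card_add_one (F := K) 3
  rw [hK] at hX
  refine ⟨⟨aff θ k 1 X 0, aff_mem θ k _ _ _⟩, ex_orderOf θ k _ _ ?_⟩
  intro n
  rw [ex_pow_zero_iff θ k ex_two_ne hk]
  have hmod := ex_pow_mod m
  obtain ⟨s, hs⟩ : ∃ s, 3 ^ (2 * m + 1) + 1 = 2 * s := ⟨(3 ^ (2 * m + 1) + 1) / 2, by omega⟩
  have hs2 : (3 ^ (2 * m + 1) + 1) / 2 = s := by omega
  rw [hs2]
  rw [hs] at hX
  have key : (X ^ n = 1 ∨ X ^ n = negOne) ↔ X ^ (2 * n) = 1 := by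
    rw [mul_comm, pow_mul, pow_two]
    constructor
    · rintro (h | h) <;> rw [h]
      · exact mul_one 1
      · exact pow_negOne_sq
    · intro h
      exact eq_one_or_negOne_of_mem_center _ (mem_center_of_sq_eq_one ex_two_ne _ h)
  rw [key, one_pow, ← orderOf_dvd_iff_pow_eq_one (x := X), hX,
    Nat.mul_dvd_mul_iff_left (by norm_num)]
  simp

end Cfsg.Agent.Lib.Helper8.Cube
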