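import Cfsg.Agent.Lib.Helper8.Cube.Defs

/-! CUBE ladder (S3626), rung FINC. -/

set_option autoImplicit false

namespace Cfsg.Agent.Lib.Helper8.Cube

open Matrix Cfsg.Agent.Lib.Helper46

variable {K : Type*} [Field K] [Finite K] (θ : K →+* K) (k : ℕ)

theorem finite_XG : Finite (XG θ k) := by
  have : Finite (Matrix (Fin 2) (Fin 2) K) := by unfold Matrix; infer_instance
  have : Finite (Equiv.Perm (Fin k → Matrix (Fin 2) (Fin 2) K)) := inferInstance
  exact Finite.of_injective (fun x : XG θ k => (x : Equiv.Perm (Fin k → Matrix (Fin 2) (Fin 2) K)))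
    Subtype.val_injective

theorem card_XG_ge : 3 ^ k ≤ Nat.card (XG θ k) := by
  have hfm : Finite (Matrix (Fin 2) (Fin 2) K) := by unfold Matrix; infer_instance
  have hf := finite_XG θ k
  let f : (Fin k → Matrix (Fin 2) (Fin 2) K) → XG θ k := fun b => ⟨aff θ k 1 1 b, aff_mem θ k 1 1 b⟩
  have hinj : Function.Injective f := by
    intro b b' h
    have h1 : aff θ k 1 1 b = aff θ k 1 1 b' := congrArg Subtype.val h
    funext i
    have h2 := congrFun (congrArg (fun π : Equiv.Perm (Fin k → Matrix (Fin 2) (Fin 2) K) => π 0) h1) i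
    simp only [aff_apply, Pi.zero_apply, lin_zero, zero_add] at h2
    exact h2
  have h1 : Nat.card (Fin k → Matrix (Fin 2) (Fin 2) K) ≤ Nat.card (XG θ k) :=
    Nat.card_le_card_of_injective f hinj
  have h2 : Nat.card (Fin k → Matrix (Fin 2) (Fin 2) K)
      = Nat.card (Matrix (Fin 2) (Fin 2) K) ^ k := by
    rw [Nat.card_fun, Nat.card_fin]
  have h3 : Nat.card (Matrix (Fin 2) (Fin 2) K) = (Nat.card K ^ 2) ^ 2 := by
    unfold Matrix
    rw [Nat.card_fun, Nat.card_fun, Nat.card_fin]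
  have h4 : 2 ≤ Nat.card K := Finite.one_lt_card_iff_nontrivial.2 inferInstance
  have h5 : 3 ≤ Nat.card (Matrix (Fin 2) (Fin 2) K) := by
    rw [h3]
    calc 3 ≤ (2 ^ 2) ^ 2 := by norm_num
      _ ≤ (Nat.card K ^ 2) ^ 2 := Nat.pow_le_pow_left (Nat.pow_le_pow_left h4 2) 2
  calc 3 ^ k ≤ Nat.card (Matrix (Fin 2) (Fin 2) K) ^ k := Nat.pow_le_pow_left h5 k
    _ = Nat.card (Fin k → Matrix (Fin 2) (Fin 2) K) := h2.symm
    _ ≤ _ := h1

end Cfsg.Agent.Lib.Helper8.Cube
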