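import Cfsg.Agent.Lib.Helper8.Cube.Defs

/-! CUBE ladder (S3626), rung FIX. -/

set_option autoImplicit false

namespace Cfsg.Agent.Lib.Helper8.Cube

open Matrix Cfsg.Agent.Lib.Helper46

variable {K : Type*} [Field K] (θ : K →+* K)

theorem fix_add_adj (A : Matrix (Fin 2) (Fin 2) K) :
    A + A.adjugate = (A 0 0 + A 1 1) • (1 : Matrix (Fin 2) (Fin 2) K) := by
  ext i j
  fin_cases i <;> fin_cases j <;> simp [Matrix.adjugate_fin_two, add_comm]

/-- the trace relation behind `fix_tr`. -/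
theorem fix_tr_eq {ε : ℤˣ} {g : SpecialLinearGroup (Fin 2) K}
    {M : Matrix (Fin 2) (Fin 2) K} (hM : M ≠ 0) (h : lin θ ε g M = M) :
    tr g = ((ε : ℤ) : K) * θ (tr g) := by
  obtain ⟨e, he, hee⟩ : ∃ e : K, e = ((ε : ℤ) : K) ∧ e * e = 1 :=
    ⟨_, rfl, by rcases Int.units_eq_one_or ε with rfl | rfl <;> simp⟩
  obtain ⟨G, hG⟩ : ∃ G : Matrix (Fin 2) (Fin 2) K, G = g := ⟨_, rfl⟩
  obtain ⟨B, hB⟩ : ∃ B : Matrix (Fin 2) (Fin 2) K, B = (G.map θ)ᵀ := ⟨_, rfl⟩
  have hGd : G.det = 1 := by rw [hG]; exact g.2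
  have hBd : B.det = 1 := by
    rw [hB, det_transpose, ← RingHom.mapMatrix_apply, ← RingHom.map_det, hGd, map_one]
  have h0 : e • (G * M * B) = M := by
    unfold lin at h
    rw [← he, ← hG, ← hB] at h
    exact h
  have h1 : G * M = e • (M * B.adjugate) := by
    have h10 : e • (G * M) = M * B.adjugate := by
      conv_rhs => rw [← h0]
      rw [Matrix.smul_mul, Matrix.mul_assoc (G * M), Matrix.mul_adjugate, hBd, one_smul,
        Matrix.mul_one]
    rw [← h10, smul_smul, hee, one_smul]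
  have h2 : G.adjugate * M = e • (M * B) := by
    conv_lhs => rw [← h0]
    rw [Matrix.mul_smul, Matrix.mul_assoc G, ← Matrix.mul_assoc G.adjugate, Matrix.adjugate_mul,
      hGd, one_smul, Matrix.one_mul]
  have h5 : (G 0 0 + G 1 1) • M = (e * (B 0 0 + B 1 1)) • M := by
    calc (G 0 0 + G 1 1) • M = (G + G.adjugate) * M := by rw [fix_add_adj]; simp
      _ = G * M + G.adjugate * M := add_mul _ _ _
      _ = e • (M * B.adjugate) + e • (M * B) := by rw [h1, h2]
      _ = e • (M * (B + B.adjugate)) := by rw [mul_add, smul_add, add_comm]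
      _ = _ := by rw [fix_add_adj]; simp [smul_smul]
  have h6 : G 0 0 + G 1 1 = e * (B 0 0 + B 1 1) := by
    by_contra hne
    apply hM
    have h7 : (G 0 0 + G 1 1 - e * (B 0 0 + B 1 1)) • M = 0 := by rw [sub_smul, h5, sub_self]
    exact (smul_eq_zero.1 h7).resolve_left (sub_ne_zero.2 hne)
  simp only [tr]
  rw [map_add, ← he, ← hG]
  rw [hB] at h6
  simpa using h6

/-- a linear part with a non-zero fixed point has trace in the prime field. -/
theorem fix_tr (hθ : ∀ x, θ (θ x) = x ^ 3) {ε : ℤˣ} {g : SpecialLinearGroup (Fin 2) K}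
    {M : Matrix (Fin 2) (Fin 2) K} (hM : M ≠ 0) (h : lin θ ε g M = M) : tr g ^ 3 = tr g := by
  have h7 := fix_tr_eq θ hM h
  have hee : (((ε : ℤ) : K)) * (((ε : ℤ) : K)) = 1 := by
    rcases Int.units_eq_one_or ε with rfl | rfl <;> simp
  have h8 : θ (tr g) = ((ε : ℤ) : K) * tr g := by
    conv_rhs => rw [h7]
    rw [← mul_assoc, hee, one_mul]
  calc tr g ^ 3 = θ (θ (tr g)) := (hθ _).symm
    _ = θ (((ε : ℤ) : K) * tr g) := by rw [← h8]
    _ = ((ε : ℤ) : K) * θ (tr g) := by rw [map_mul, map_intCast]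
    _ = tr g := h7.symm

end Cfsg.Agent.Lib.Helper8.Cube
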