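import Mathlib

/-! CUBE ladder (S3626), rung LCM. -/

set_option autoImplicit false

namespace Cfsg.Agent.Lib.Helper8.Cube

theorem lcm_prop {p1 p2 p3 p4 p5 p6 : Prop} (h : p1 ∨ p2 ∨ p3 ∨ p4 ∨ p5 ∨ p6)
    (n : ¬ (p1 ∨ p2 ∨ p3 ∨ p4)) : p5 ∨ p6 := by tauto

theorem lcm_prop' {p1 p2 p3 p4 p5 p6 : Prop} (h : p1 ∨ p2 ∨ p3 ∨ p4) :
    p1 ∨ p2 ∨ p3 ∨ p4 ∨ p5 ∨ p6 := by tauto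

theorem lcm_arith (a₁ a₂ a₃ a₄ e f d1 d2 d3 : ℕ)
    (h1 : d1 ∣ a₁ ∨ d1 ∣ a₂ ∨ d1 ∣ a₃ ∨ d1 ∣ a₄ ∨ d1 ∣ e ∨ d1 ∣ f)
    (h2 : d2 ∣ a₁ ∨ d2 ∣ a₂ ∨ d2 ∣ a₃ ∨ d2 ∣ a₄ ∨ d2 ∣ e ∨ d2 ∣ f)
    (h3 : d3 ∣ a₁ ∨ d3 ∣ a₂ ∨ d3 ∣ a₃ ∨ d3 ∣ a₄ ∨ d3 ∣ e ∨ d3 ∣ f) :
    ∃ c1 c2 c3 : ℕ, (c1 ∣ a₁ ∨ c1 ∣ a₂ ∨ c1 ∣ a₃ ∨ c1 ∣ a₄ ∨ c1 ∣ e ∨ c1 ∣ f) ∧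
      (c2 ∣ a₁ ∨ c2 ∣ a₂ ∨ c2 ∣ a₃ ∨ c2 ∣ a₄ ∨ c2 ∣ e ∨ c2 ∣ f) ∧
      (c3 ∣ a₁ ∨ c3 ∣ a₂ ∨ c3 ∣ a₃ ∨ c3 ∣ a₄) ∧
      Nat.lcm c1 (Nat.lcm c2 c3) = Nat.lcm d1 (Nat.lcm d2 d3) := by
  by_cases A3 : d3 ∣ a₁ ∨ d3 ∣ a₂ ∨ d3 ∣ a₃ ∨ d3 ∣ a₄
  · exact ⟨d1, d2, d3, h1, h2, A3, rfl⟩
  by_cases A2 : d2 ∣ a₁ ∨ d2 ∣ a₂ ∨ d2 ∣ a₃ ∨ d2 ∣ a₄
  · exact ⟨d1, d3, d2, h1, h3, A2, by rw [Nat.lcm_comm d3 d2]⟩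
  by_cases A1 : d1 ∣ a₁ ∨ d1 ∣ a₂ ∨ d1 ∣ a₃ ∨ d1 ∣ a₄
  · refine ⟨d2, d3, d1, h2, h3, A1, ?_⟩
    exact (Nat.lcm_assoc d2 d3 d1).symm.trans (Nat.lcm_comm _ _)
  have g1 : d1 ∣ e ∨ d1 ∣ f := lcm_prop h1 A1
  have g2 : d2 ∣ e ∨ d2 ∣ f := lcm_prop h2 A2
  have g3 : d3 ∣ e ∨ d3 ∣ f := lcm_prop h3 A3
  have one : (1 ∣ a₁ ∨ 1 ∣ a₂ ∨ 1 ∣ a₃ ∨ 1 ∣ a₄) := Or.inl (one_dvd _)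
  have T12 : (Nat.lcm d1 d2 ∣ e ∨ Nat.lcm d1 d2 ∣ f) → _ := fun h =>
    (⟨Nat.lcm d1 d2, d3, 1, Or.inr (Or.inr (Or.inr (Or.inr h))), h3, one, by
      rw [Nat.lcm_one_right, Nat.lcm_assoc]⟩ : ∃ c1 c2 c3 : ℕ,
      (c1 ∣ a₁ ∨ c1 ∣ a₂ ∨ c1 ∣ a₃ ∨ c1 ∣ a₄ ∨ c1 ∣ e ∨ c1 ∣ f) ∧
      (c2 ∣ a₁ ∨ c2 ∣ a₂ ∨ c2 ∣ a₃ ∨ c2 ∣ a₄ ∨ c2 ∣ e ∨ c2 ∣ f) ∧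
      (c3 ∣ a₁ ∨ c3 ∣ a₂ ∨ c3 ∣ a₃ ∨ c3 ∣ a₄) ∧
      Nat.lcm c1 (Nat.lcm c2 c3) = Nat.lcm d1 (Nat.lcm d2 d3))
  have T23 : (Nat.lcm d2 d3 ∣ e ∨ Nat.lcm d2 d3 ∣ f) → _ := fun h =>
    (⟨d1, Nat.lcm d2 d3, 1, h1, Or.inr (Or.inr (Or.inr (Or.inr h))), one, by
      rw [Nat.lcm_one_right]⟩ : ∃ c1 c2 c3 : ℕ,
      (c1 ∣ a₁ ∨ c1 ∣ a₂ ∨ c1 ∣ a₃ ∨ c1 ∣ a₄ ∨ c1 ∣ e ∨ c1 ∣ f) ∧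
      (c2 ∣ a₁ ∨ c2 ∣ a₂ ∨ c2 ∣ a₃ ∨ c2 ∣ a₄ ∨ c2 ∣ e ∨ c2 ∣ f) ∧
      (c3 ∣ a₁ ∨ c3 ∣ a₂ ∨ c3 ∣ a₃ ∨ c3 ∣ a₄) ∧
      Nat.lcm c1 (Nat.lcm c2 c3) = Nat.lcm d1 (Nat.lcm d2 d3))
  have T13 : (Nat.lcm d1 d3 ∣ e ∨ Nat.lcm d1 d3 ∣ f) → _ := fun h =>
    (⟨Nat.lcm d1 d3, d2, 1, Or.inr (Or.inr (Or.inr (Or.inr h))), h2, one, by
      rw [Nat.lcm_one_right, Nat.lcm_assoc, Nat.lcm_comm d3 d2]⟩ : ∃ c1 c2 c3 : ℕ,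
      (c1 ∣ a₁ ∨ c1 ∣ a₂ ∨ c1 ∣ a₃ ∨ c1 ∣ a₄ ∨ c1 ∣ e ∨ c1 ∣ f) ∧
      (c2 ∣ a₁ ∨ c2 ∣ a₂ ∨ c2 ∣ a₃ ∨ c2 ∣ a₄ ∨ c2 ∣ e ∨ c2 ∣ f) ∧
      (c3 ∣ a₁ ∨ c3 ∣ a₂ ∨ c3 ∣ a₃ ∨ c3 ∣ a₄) ∧
      Nat.lcm c1 (Nat.lcm c2 c3) = Nat.lcm d1 (Nat.lcm d2 d3))
  rcases g1 with g1 | g1 <;> rcases g2 with g2 | g2 <;> rcases g3 with g3 | g3
  · exact T12 (Or.inl (Nat.lcm_dvd g1 g2))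
  · exact T12 (Or.inl (Nat.lcm_dvd g1 g2))
  · exact T13 (Or.inl (Nat.lcm_dvd g1 g3))
  · exact T23 (Or.inr (Nat.lcm_dvd g2 g3))
  · exact T23 (Or.inl (Nat.lcm_dvd g2 g3))
  · exact T13 (Or.inr (Nat.lcm_dvd g1 g3))
  · exact T12 (Or.inr (Nat.lcm_dvd g1 g2))
  · exact T12 (Or.inr (Nat.lcm_dvd g1 g2))

/-- replacing one factor `R` of `R × R × R` by a group `X` whose spectrum misses only two of the six "tori". -/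
theorem range_eq {R R' X : Type*} [Group R] [Group R'] [Group X] (a₁ a₂ a₃ a₄ e f : ℕ)
    (hR : ∀ d, (∃ g : R, orderOf g = d) ↔ (d ∣ a₁ ∨ d ∣ a₂ ∨ d ∣ a₃ ∨ d ∣ a₄ ∨ d ∣ e ∨ d ∣ f))
    (hR' : ∀ d, (∃ g : R', orderOf g = d) ↔ (d ∣ a₁ ∨ d ∣ a₂ ∨ d ∣ a₃ ∨ d ∣ a₄ ∨ d ∣ e ∨ d ∣ f))
    (hX : ∀ d, (∃ g : X, orderOf g = d) ↔ (d ∣ a₁ ∨ d ∣ a₂ ∨ d ∣ a₃ ∨ d ∣ a₄)) :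
    Set.range (orderOf : R × R × X → ℕ) = Set.range (orderOf : R' × R' × R' → ℕ) := by
  ext n
  constructor
  · rintro ⟨⟨x, y, z⟩, rfl⟩
    obtain ⟨x', hx'⟩ := (hR' _).2 ((hR _).1 ⟨x, rfl⟩)
    obtain ⟨y', hy'⟩ := (hR' _).2 ((hR _).1 ⟨y, rfl⟩)
    obtain ⟨z', hz'⟩ := (hR' (orderOf z)).2 (by
      exact lcm_prop' ((hX _).1 ⟨z, rfl⟩))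
    refine ⟨(x', y', z'), ?_⟩
    rw [Prod.orderOf, Prod.orderOf, Prod.orderOf, Prod.orderOf]
    simp only [hx', hy', hz']
  · rintro ⟨⟨x, y, z⟩, rfl⟩
    obtain ⟨c1, c2, c3, h1, h2, h3, h⟩ := lcm_arith a₁ a₂ a₃ a₄ e f (orderOf x) (orderOf y)
      (orderOf z) ((hR' _).1 ⟨x, rfl⟩) ((hR' _).1 ⟨y, rfl⟩) ((hR' _).1 ⟨z, rfl⟩)
    obtain ⟨u, hu⟩ := (hR _).2 h1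
    obtain ⟨v, hv⟩ := (hR _).2 h2
    obtain ⟨w, hw⟩ := (hX _).2 h3
    refine ⟨(u, v, w), ?_⟩
    rw [Prod.orderOf, Prod.orderOf, Prod.orderOf, Prod.orderOf]
    simp only [hu, hv, hw]
    exact h

end Cfsg.Agent.Lib.Helper8.Cube
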