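import Cfsg.Agent.Lib.Helper8.Cube.LID

/-! CUBE ladder, rung MU (for S2515). -/

set_option autoImplicit false

namespace Cfsg.Agent.Lib.Helper8.Cube

open Matrix Cfsg.Agent.Lib.Helper46

theorem MU_trans_mul {K : Type*} [Field K] (θ : K →+* K) (k : ℕ)
    (b c : Fin k → Matrix (Fin 2) (Fin 2) K) :
    aff θ k 1 1 b * aff θ k 1 1 c = aff θ k 1 1 (c + b) := by
  rw [aff_mul]
  simp only [mul_one]
  congr 1
  funext i
  rw [lin_one]
  rfl

theorem MU_trans_inv {K : Type*} [Field K] (θ : K →+* K) (k : ℕ)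
    (b : Fin k → Matrix (Fin 2) (Fin 2) K) :
    (aff θ k 1 1 b)⁻¹ = aff θ k 1 1 (-b) := by
  rw [aff_inv]
  simp only [inv_one]
  congr 1
  funext i
  rw [lin_one]
  rfl

theorem MU_conj {K : Type*} [Field K] (θ : K →+* K) (k : ℕ) (ε : ℤˣ)
    (g : SpecialLinearGroup (Fin 2) K)
    (b c : Fin k → Matrix (Fin 2) (Fin 2) K) :
    aff θ k ε g b * aff θ k 1 1 c * (aff θ k ε g b)⁻¹ = aff θ k 1 1 (fun i => lin θ ε g (c i)) := by
  rw [aff_inv, aff_mul, aff_mul]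
  simp only [mul_one, unit_mul_self, mul_inv_cancel]
  congr 1
  funext i
  rw [lin_neg, lin_lin, unit_mul_self, mul_inv_cancel, lin_one]
  abel

/-- the translation subgroup. -/
def MU_T {K : Type*} [Field K] (θ : K →+* K) (k : ℕ) : Subgroup (XG θ k) where
  carrier := {x | ∃ b, (x : Equiv.Perm (Fin k → Matrix (Fin 2) (Fin 2) K)) = aff θ k 1 1 b}
  mul_mem' := by
    rintro x y ⟨b, hb⟩ ⟨c, hc⟩
    exact ⟨c + b, by rw [Subgroup.coe_mul, hb, hc, MU_trans_mul]⟩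
  one_mem' := ⟨0, by rw [Subgroup.coe_one, aff_one]⟩
  inv_mem' := by
    rintro x ⟨b, hb⟩
    exact ⟨-b, by rw [Subgroup.coe_inv, hb, MU_trans_inv]⟩

/-- the translations form a non-trivial normal 3-subgroup. -/
theorem exists_normal_three {K : Type*} [Field K] (θ : K →+* K) (k : ℕ) (h3 : (3 : K) = 0) (hk : 1 ≤ k) :
    ∃ P : Subgroup (XG θ k), P.Normal ∧ P ≠ ⊥ ∧ IsPGroup 3 P := by
  refine ⟨MU_T θ k, ⟨?_⟩, ?_, ?_⟩
  · rintro x ⟨c, hc⟩ y
    obtain ⟨ε, g, b, hy⟩ := y.2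
    exact ⟨_, by rw [Subgroup.coe_mul, Subgroup.coe_mul, Subgroup.coe_inv, hc, hy, MU_conj]⟩
  · intro hbot
    have hmem : (⟨aff θ k 1 1 (fun _ => 1), aff_mem θ k _ _ _⟩ : XG θ k) ∈ MU_T θ k := ⟨_, rfl⟩
    rw [hbot, Subgroup.mem_bot] at hmem
    have h1 : aff θ k 1 1 (fun _ => 1) = 1 := congrArg Subtype.val hmem
    have h2 := congrFun (congrFun (congrArg (fun π : Equiv.Perm (Fin k → Matrix (Fin 2) (Fin 2) K) => (π : (Fin k → Matrix (Fin 2) (Fin 2) K) → (Fin k → Matrix (Fin 2) (Fin 2) K))) h1) 0) ⟨0, hk⟩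
    simp only [aff_apply, Equiv.Perm.coe_one, id_eq, Pi.zero_apply, lin_zero, zero_add] at h2
    exact one_ne_zero h2
  · rintro ⟨x, b, hb⟩
    refine ⟨1, ?_⟩
    apply Subtype.ext
    apply Subtype.ext
    rw [pow_one]
    show (x : Equiv.Perm (Fin k → Matrix (Fin 2) (Fin 2) K)) ^ 3 = 1
    rw [hb, pow_succ, pow_two, MU_trans_mul, MU_trans_mul, ← aff_one]
    congr 1
    funext i
    ext r s
    simp only [Pi.add_apply, Matrix.add_apply, Pi.zero_apply, Matrix.zero_apply]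
    have : b i r s + (b i r s + b i r s) = 3 * b i r s := by ring
    rw [this, h3, zero_mul]

theorem MU_arith {m : ℕ} (hm : 1 ≤ m) :
    ∃ s : ℕ, 4 ≤ s ∧ 3 ^ (2 * m + 1) - 1 = 6 * s + 2 ∧ (3 ^ (2 * m + 1) + 1) / 2 = 3 * s + 2 := by
  have h9 : ∃ t : ℕ, 9 ^ m = 8 * t + 1 ∧ 1 ≤ t := by
    induction m, hm using Nat.le_induction with
    | base => exact ⟨1, by norm_num, le_rfl⟩
    | succ n _ ih =>
      obtain ⟨t, ht, h1⟩ := ih
      exact ⟨9 * t + 1, by rw [pow_succ, ht]; ring, by omega⟩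
  obtain ⟨t, ht, h1⟩ := h9
  have hq : 3 ^ (2 * m + 1) = 24 * t + 3 := by
    rw [pow_succ, pow_mul]
    norm_num
    rw [ht]; ring
  refine ⟨4 * t, by omega, ?_, ?_⟩
  · rw [hq]; omega
  · rw [hq]; omega

/-- the maximal element orders. -/
theorem mu_set {H : Type*} [Group H] {m : ℕ} (hm : 1 ≤ m)
    (hs : ∀ d, (∃ x : H, orderOf x = d) ↔
      (d ∣ 6 ∨ d ∣ 9 ∨ d ∣ 3 ^ (2 * m + 1) - 1 ∨ d ∣ (3 ^ (2 * m + 1) + 1) / 2)) :
    {n : ℕ | n ∈ Set.range (orderOf : H → ℕ) ∧ ∀ m' ∈ Set.range (orderOf : H → ℕ), n ∣ m' → m' = n} =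
      ({6, 9, 3 ^ (2 * m + 1) - 1, (3 ^ (2 * m + 1) + 1) / 2} : Set ℕ) := by
  obtain ⟨s, hs4, h1, h2⟩ := MU_arith hm
  rw [h1, h2] at hs ⊢
  have hr : ∀ d, d ∈ Set.range (orderOf : H → ℕ) ↔
      (d ∣ 6 ∨ d ∣ 9 ∨ d ∣ 6 * s + 2 ∨ d ∣ 3 * s + 2) := fun d => hs d
  have key : ∀ a ∈ ({6, 9, 6 * s + 2, 3 * s + 2} : Set ℕ), ∀ c ∈ ({6, 9, 6 * s + 2, 3 * s + 2} : Set ℕ),
      a ∣ c → a = c := by
    intro a ha c hc hac
    simp only [Set.mem_insert_iff, Set.mem_singleton_iff] at ha hc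
    rcases ha with rfl | rfl | rfl | rfl <;> rcases hc with rfl | rfl | rfl | rfl <;>
      first
      | rfl
      | (exfalso; omega)
      | (exfalso; have := Nat.le_of_dvd (by omega) hac; omega)
      | (exfalso
         obtain ⟨c, hc⟩ := hac
         rcases Nat.lt_or_ge c 2 with h | h
         · interval_cases c <;> omega
         · nlinarith)
  have hmemA : ∀ d, (d ∣ 6 ∨ d ∣ 9 ∨ d ∣ 6 * s + 2 ∨ d ∣ 3 * s + 2) ↔
      ∃ a ∈ ({6, 9, 6 * s + 2, 3 * s + 2} : Set ℕ), d ∣ a := by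
    intro d
    simp only [Set.mem_insert_iff, Set.mem_singleton_iff, exists_eq_or_imp, exists_eq_left]
  ext n
  simp only [Set.mem_setOf_eq]
  constructor
  · rintro ⟨hn, hmax⟩
    rw [hr, hmemA] at hn
    obtain ⟨a, ha, hna⟩ := hn
    have : a = n := hmax a ((hr a).2 ((hmemA a).2 ⟨a, ha, dvd_rfl⟩)) hna
    rw [← this]; exact ha
  · intro hn
    refine ⟨(hr n).2 ((hmemA n).2 ⟨n, hn, dvd_rfl⟩), ?_⟩
    intro m' hm' hnm
    rw [hr, hmemA] at hm'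
    obtain ⟨a, ha, hma⟩ := hm'
    have : n = a := key n hn a ha (hnm.trans hma)
    subst this
    exact Nat.dvd_antisymm hma hnm

end Cfsg.Agent.Lib.Helper8.Cube
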