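import Cfsg.Agent.Lib.Helper8.Cube.Defs

/-! CUBE ladder (S3626), rung POW. -/

set_option autoImplicit false

namespace Cfsg.Agent.Lib.Helper8.Cube

open Matrix Cfsg.Agent.Lib.Helper46

variable {K : Type*} [Field K] (θ : K →+* K) (k : ℕ)

theorem pow_negOne_sq : (negOne : SpecialLinearGroup (Fin 2) K) * negOne = 1 := by
  ext i j
  fin_cases i <;> fin_cases j <;> simp [negOne, mul_00, mul_01, mul_10, mul_11]

theorem pow_lin_pm {g : SpecialLinearGroup (Fin 2) K} (hg : g = 1 ∨ g = negOne)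
    (M : Matrix (Fin 2) (Fin 2) K) : lin θ 1 g M = M := by
  rcases hg with rfl | rfl
  · exact lin_one θ M
  · have := lin_negOne θ 1 1 M
    rw [mul_one, lin_one] at this
    exact this

theorem pow_pm_pow {g : SpecialLinearGroup (Fin 2) K} (hg : g = 1 ∨ g = negOne) (n : ℕ) :
    g ^ n = 1 ∨ g ^ n = negOne := by
  induction n with
  | zero => left; exact pow_zero g
  | succ n ih =>
    rw [pow_succ]
    rcases ih with h | h <;> rcases hg with rfl | rfl <;> rw [h]
    · left; exact mul_one 1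
    · right; exact one_mul _
    · right; exact mul_one _
    · left; exact pow_negOne_sq

theorem aff_pow (ε : ℤˣ) (g : SpecialLinearGroup (Fin 2) K) (b : Fin k → Matrix (Fin 2) (Fin 2) K) (n : ℕ) :
    aff θ k ε g b ^ n = aff θ k (ε ^ n) (g ^ n) (fun i => nsum θ ε g n (b i)) := by
  induction n with
  | zero =>
    rw [pow_zero, pow_zero, pow_zero, ← aff_one θ k]
    congr 1
  | succ n ih =>
    rw [pow_succ, ih, aff_mul, pow_succ, pow_succ]
    congr 1
    funext i
    unfold nsum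
    rw [Finset.sum_range_succ, add_comm]

theorem aff_eq_one {ε : ℤˣ} {g : SpecialLinearGroup (Fin 2) K} {b : Fin k → Matrix (Fin 2) (Fin 2) K}
    (hε : ε = 1) (hg : g = 1 ∨ g = negOne) (hb : ∀ i, b i = 0) : aff θ k ε g b = 1 := by
  subst hε
  ext v i : 2
  rw [aff_apply, pow_lin_pm θ hg, hb i, add_zero]
  rfl

theorem lin_nsum (ε : ℤˣ) (g : SpecialLinearGroup (Fin 2) K) (n : ℕ) (M : Matrix (Fin 2) (Fin 2) K) :
    lin θ ε g (nsum θ ε g n M) - nsum θ ε g n M = lin θ (ε ^ n) (g ^ n) M - M := by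
  induction n with
  | zero =>
    simp [nsum, lin_zero, lin_one]
  | succ n ih =>
    have h1 : nsum θ ε g (n + 1) M = nsum θ ε g n M + lin θ (ε ^ n) (g ^ n) M := by
      unfold nsum
      rw [Finset.sum_range_succ]
    rw [h1, lin_add, lin_lin, ← pow_succ', ← pow_succ']
    have h2 : lin θ ε g (nsum θ ε g n M) = nsum θ ε g n M + (lin θ (ε ^ n) (g ^ n) M - M) := by
      rw [← ih]; abel
    rw [h2]
    abel

/-- if the linear part has no non-zero fixed point, the order is that of the linear part. -/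
theorem aff_pow_of_fix {ε : ℤˣ} {g : SpecialLinearGroup (Fin 2) K} {n : ℕ} (hε : ε ^ n = 1)
    (hg : g ^ n = 1 ∨ g ^ n = negOne) (hfix : ∀ M, lin θ ε g M = M → M = 0)
    (b : Fin k → Matrix (Fin 2) (Fin 2) K) : aff θ k ε g b ^ n = 1 := by
  rw [aff_pow]
  apply aff_eq_one θ k hε hg
  intro i
  apply hfix
  have h := lin_nsum θ ε g n (b i)
  rw [hε, pow_lin_pm θ hg, sub_self] at h
  exact sub_eq_zero.1 h

theorem aff_pow_three_mul (h3 : (3 : K) = 0) {ε : ℤˣ} {g : SpecialLinearGroup (Fin 2) K} {n : ℕ}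
    (hε : ε ^ n = 1) (hg : g ^ n = 1 ∨ g ^ n = negOne) (b : Fin k → Matrix (Fin 2) (Fin 2) K) :
    aff θ k ε g b ^ (3 * n) = 1 := by
  rw [pow_mul', aff_pow, hε, aff_pow]
  apply aff_eq_one θ k (one_pow 3) (pow_pm_pow hg 3)
  intro i
  generalize nsum θ ε g n (b i) = c
  unfold nsum
  have h : ∀ j ∈ Finset.range 3, lin θ ((1 : ℤˣ) ^ j) ((g ^ n) ^ j) c = c := by
    intro j _
    rw [one_pow]
    exact pow_lin_pm θ (pow_pm_pow hg j) c
  rw [Finset.sum_congr rfl h, Finset.sum_const, Finset.card_range]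
  rw [← Nat.cast_smul_eq_nsmul K]
  push_cast
  rw [h3, zero_smul]

end Cfsg.Agent.Lib.Helper8.Cube
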