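import Cfsg.Agent.Lib.Helper8.Cube.UP
import Cfsg.Agent.Lib.Helper8.Cube.EX

/-! CUBE ladder (S3626), rung SPEC. -/

set_option autoImplicit false

namespace Cfsg.Agent.Lib.Helper8.Cube

open Matrix Cfsg.Agent.Lib.Helper46

theorem spec_exists_of_dvd {X : Type*} [Group X] {N d : ℕ} (hN : 0 < N) (h : ∃ y : X, orderOf y = N)
    (hd : d ∣ N) : ∃ x : X, orderOf x = d := by
  obtain ⟨y, hy⟩ := h
  obtain ⟨c, rfl⟩ := hd
  have hc : c ≠ 0 := by
    rintro rfl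
    simp at hN
  have hd0 : 0 < c := Nat.pos_of_ne_zero hc
  refine ⟨y ^ c, ?_⟩
  rw [orderOf_pow_of_dvd hc (by rw [hy]; exact dvd_mul_left _ _), hy]
  exact Nat.mul_div_cancel _ hd0

variable {K : Type*} [Field K] [Fintype K] [CharP K 3] (θ : K →+* K) (k : ℕ) {m : ℕ}

/-- the spectrum of `XG`. -/
theorem spec_XG (hK : Fintype.card K = 3 ^ (2 * m + 1)) (hθ : ∀ x, θ (θ x) = x ^ 3) (hk : 1 ≤ k) (d : ℕ) :
    (∃ x : XG θ k, orderOf x = d) ↔
      (d ∣ 6 ∨ d ∣ 9 ∨ d ∣ 3 ^ (2 * m + 1) - 1 ∨ d ∣ (3 ^ (2 * m + 1) + 1) / 2) := by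
  have hq : 3 ≤ 3 ^ (2 * m + 1) := by
    calc 3 = 3 ^ 1 := by norm_num
      _ ≤ 3 ^ (2 * m + 1) := Nat.pow_le_pow_right (by norm_num) (by omega)
  constructor
  · rintro ⟨x, rfl⟩
    rcases XG_pow θ k hK hθ x with h | h | h | h
    · exact Or.inl (orderOf_dvd_of_pow_eq_one h)
    · exact Or.inr (Or.inl (orderOf_dvd_of_pow_eq_one h))
    · exact Or.inr (Or.inr (Or.inl (orderOf_dvd_of_pow_eq_one h)))
    · exact Or.inr (Or.inr (Or.inr (orderOf_dvd_of_pow_eq_one h)))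
  · rintro (h | h | h | h)
    · exact spec_exists_of_dvd (by norm_num) (exists_order_six θ k hk) h
    · exact spec_exists_of_dvd (by norm_num) (exists_order_nine θ k hk) h
    · exact spec_exists_of_dvd (by omega) (exists_order_sub θ k hK hk) h
    · exact spec_exists_of_dvd (by omega) (exists_order_add θ k hK hk) h

end Cfsg.Agent.Lib.Helper8.Cube
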