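import Cfsg.Agent.Lib.Helper8.Cube.POW
import Cfsg.Agent.Lib.Helper8.Cube.FIX

/-! CUBE ladder (S3626), rung UP. -/

set_option autoImplicit false

namespace Cfsg.Agent.Lib.Helper8.Cube

open Matrix Cfsg.Agent.Lib.Helper46

theorem up_center {K : Type*} [Field K] (g : SpecialLinearGroup (Fin 2) K)
    (hcen : g ∈ Subgroup.center (SpecialLinearGroup (Fin 2) K)) : g = 1 ∨ g = negOne := by
  obtain ⟨hb, hc, had⟩ := (mem_center_iff2 g).1 hcen
  rcases center_entry g hcen with h6 | h6
  · left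
    apply ext2 <;> simp only [one_00, one_01, one_10, one_11]
    · exact h6
    · exact hb
    · exact hc
    · rw [← had]; exact h6
  · right
    apply ext2 <;> simp only [negOne, mk2_00, mk2_01, mk2_10, mk2_11]
    · exact h6
    · exact hb
    · exact hc
    · rw [← had]; exact h6

theorem up_unit_even (ε : ℤˣ) {n : ℕ} (hn : Even n) : ε ^ n = 1 := by
  obtain ⟨r, rfl⟩ := hn
  rw [pow_add, ← mul_pow, unit_mul_self, one_pow]

theorem up_mod (m : ℕ) : 3 ^ (2 * m + 1) % 8 = 3 := by
  rw [pow_succ, pow_mul, Nat.mul_mod, Nat.pow_mod]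
  norm_num

variable {K : Type*} [Field K] [Fintype K] [CharP K 3] (θ : K →+* K) (k : ℕ) {m : ℕ}

theorem up_three : (3 : K) = 0 := by
  have := CharP.cast_eq_zero K 3
  exact_mod_cast this

theorem up_two : (2 : K) ≠ 0 := by
  intro h
  have h3 : (3 : K) = 0 := up_three
  have : (1 : K) = 0 := by linear_combination h3 - h
  exact one_ne_zero this

theorem aff_tr_zero {g : SpecialLinearGroup (Fin 2) K} (h : tr g = 0) (ε : ℤˣ)
    (b : Fin k → Matrix (Fin 2) (Fin 2) K) : aff θ k ε g b ^ 6 = 1 := by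
  have h1 : g ^ 2 = negOne := by rw [pow_two]; exact sq_of_tr_zero g h
  exact aff_pow_three_mul θ k up_three (n := 2) (up_unit_even ε (by decide)) (Or.inr h1) b

theorem aff_tr_sq {g : SpecialLinearGroup (Fin 2) K} (h : tr g ^ 2 = 1) (ε : ℤˣ)
    (b : Fin k → Matrix (Fin 2) (Fin 2) K) : aff θ k ε g b ^ 6 = 1 ∨ aff θ k ε g b ^ 9 = 1 := by
  have h3 : (3 : K) = 0 := up_three
  have : Fact (Nat.Prime 3) := ⟨Nat.prime_three⟩
  have hc : g ^ 3 ∈ Subgroup.center (SpecialLinearGroup (Fin 2) K) :=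
    pow_char_mem_center 3 g (by rw [h]; linear_combination -h3)
  have hg3 := up_center _ hc
  rcases Int.units_eq_one_or ε with rfl | rfl
  · right
    exact aff_pow_three_mul θ k h3 (n := 3) (one_pow 3) hg3 b
  · left
    have hL3 : ∀ M, lin θ ((-1 : ℤˣ) ^ 3) (g ^ 3) M = -M := by
      intro M
      have e1 : ((-1 : ℤˣ) ^ 3) = -1 := by decide
      have e2 : lin θ (-1) 1 M = -M := by
        unfold lin; simp
      rw [e1]
      rcases hg3 with h4 | h4
      · rw [h4]; exact e2
      · rw [h4]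
        have h5 := lin_negOne θ (-1) 1 M
        rw [mul_one] at h5
        rw [h5]; exact e2
    have hsh : ∀ (i : ℕ) M, lin θ ((-1 : ℤˣ) ^ (i + 3)) (g ^ (i + 3)) M
        = - lin θ ((-1 : ℤˣ) ^ i) (g ^ i) M := by
      intro i M
      rw [pow_add, pow_add, ← lin_lin, hL3, lin_neg]
    have hn : ∀ M, nsum θ (-1) g 6 M = 0 := by
      intro M
      unfold nsum
      rw [Finset.sum_range_succ, Finset.sum_range_succ, Finset.sum_range_succ]
      rw [hsh 2 M, hsh 1 M, hsh 0 M]
      rw [Finset.sum_range_succ, Finset.sum_range_succ, Finset.sum_range_succ, Finset.sum_range_zero]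
      abel
    rw [aff_pow]
    apply aff_eq_one
    · decide
    · left
      have : g ^ 6 = g ^ 3 * g ^ 3 := by rw [← pow_add]
      rw [this]
      exact sq_eq_one_of_mem_center _ hc
    · intro i; exact hn _

theorem aff_generic (hK : Fintype.card K = 3 ^ (2 * m + 1)) (hθ : ∀ x, θ (θ x) = x ^ 3)
    {g : SpecialLinearGroup (Fin 2) K} (h : tr g ^ 3 ≠ tr g) (ε : ℤˣ)
    (b : Fin k → Matrix (Fin 2) (Fin 2) K) :
    aff θ k ε g b ^ (3 ^ (2 * m + 1) - 1) = 1 ∨ aff θ k ε g b ^ ((3 ^ (2 * m + 1) + 1) / 2) = 1 := by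
  have h3 : (3 : K) = 0 := up_three
  have hmod := up_mod m
  have hfix : ∀ M, lin θ ε g M = M → M = 0 := by
    intro M hM
    by_contra hne
    exact h (fix_tr θ hθ hne hM)
  by_cases hroot : ∃ a : K, a ^ 2 - tr g * a + 1 = 0
  · left
    obtain ⟨a, ha⟩ := hroot
    have ha2 : a ^ 2 ≠ 1 := by
      intro ha2
      apply h
      have h1 : tr g * a = 2 := by linear_combination -ha + ha2
      have h4 : tr g = 2 * a := by
        calc tr g = tr g * a ^ 2 := by rw [ha2, mul_one]
          _ = (tr g * a) * a := by ring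
          _ = 2 * a := by rw [h1]
      rw [h4]
      calc (2 * a) ^ 3 = 8 * a * a ^ 2 := by ring
        _ = 8 * a := by rw [ha2, mul_one]
        _ = 2 * a := by linear_combination 2 * a * h3
    obtain ⟨u, P, -, hP⟩ := conj_dd_of_root g a ha ha2
    have hu : u ^ (Fintype.card K - 1) = 1 :=
      Units.ext (by simpa using FiniteField.pow_card_sub_one_eq_one (u : K) u.ne_zero)
    have hg : g ^ (3 ^ (2 * m + 1) - 1) = 1 := by
      rw [← hP, conj_pow', dd_pow, ← hK, hu, dd_one]
      group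
    apply aff_pow_of_fix θ k _ (Or.inl hg) hfix b
    apply up_unit_even
    rw [Nat.even_iff]; omega
  · right
    push Not at hroot
    have hX := pow_card_add_one_of_nonsplit g hroot
    rw [hK] at hX
    have hc : g ^ ((3 ^ (2 * m + 1) + 1) / 2) ∈ Subgroup.center (SpecialLinearGroup (Fin 2) K) := by
      apply mem_center_of_sq_eq_one up_two
      rw [← pow_add, ← two_mul, Nat.mul_div_cancel' (by omega), hX]
    apply aff_pow_of_fix θ k _ (up_center _ hc) hfix b
    apply up_unit_even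
    rw [Nat.even_iff]; omega

theorem XG_pow (hK : Fintype.card K = 3 ^ (2 * m + 1)) (hθ : ∀ x, θ (θ x) = x ^ 3) (x : XG θ k) :
    x ^ 6 = 1 ∨ x ^ 9 = 1 ∨ x ^ (3 ^ (2 * m + 1) - 1) = 1 ∨ x ^ ((3 ^ (2 * m + 1) + 1) / 2) = 1 := by
  obtain ⟨x, ε, g, b, rfl⟩ := x
  simp only [← Subtype.coe_inj, Subgroup.coe_pow, Subgroup.coe_one]
  by_cases h : tr g ^ 3 = tr g
  · have h1 : tr g * (tr g ^ 2 - 1) = 0 := by linear_combination h
    rcases mul_eq_zero.1 h1 with h2 | h2
    · left; exact aff_tr_zero θ k h2 ε b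
    · rcases aff_tr_sq θ k (sub_eq_zero.1 h2) ε b with h4 | h4
      · left; exact h4
      · right; left; exact h4
  · rcases aff_generic θ k hK hθ h ε b with h4 | h4
    · right; right; left; exact h4
    · right; right; right; exact h4

end Cfsg.Agent.Lib.Helper8.Cube
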